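import Mathlib
import Cfsg.Prelude.Def_Transfer
import Cfsg.Prelude.Def_Solvable
import Cfsg.Agent.Lib.Helper32.Scn.Defs

/-!
# S4409 packages (helper32)

`IsP8 B`: `B` is an abelian noncyclic subgroup of order 8.  `EQ N`: `N` is a four-group or a
quaternion group of order 8.  Type-level contexts `Gen Y A` (`Y = [Y, A]`, `A` of odd order, `Y` a
2-group) and `Ctx Y A` (moreover `Y` nonabelian and no proper `A`-invariant subgroup contains a
`P8`-subgroup).  `omZ` is `Cfsg.Agent.Lib.Helper32.Scn.omZ` (`Ω₁(Z(Y))`).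
-/

set_option autoImplicit false

universe u

namespace Cfsg.Agent.Lib.Helper32.P8

open Cfsg.Agent.Lib.Helper32.Scn

/-- abelian, noncyclic, of order 8 -/
def IsP8 {G : Type u} [Group G] (B : Subgroup G) : Prop :=
  IsMulCommutative ↥B ∧ ¬ IsCyclic ↥B ∧ Nat.card ↥B = 8

/-- a four-group or a quaternion group of order 8 -/
def EQ {G : Type u} [Group G] (N : Subgroup G) : Prop :=
  (Nat.card ↥N = 4 ∧ ∀ n ∈ N, n * n = 1) ∨ Nonempty (↥N ≃* QuaternionGroup 2)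

/-- `Y` is a 2-group, `A` a group of automorphisms of odd order, `Y = [Y, A]`. -/
structure Gen (Y : Type u) [Group Y] (A : Subgroup (MulAut Y)) : Prop where
  two : IsPGroup 2 Y
  odd : Odd (Nat.card A)
  gen : Subgroup.closure {g : Y | ∃ φ ∈ A, ∃ x : Y, g = x⁻¹ * φ x} = ⊤

/-- `Gen`, `Y` nonabelian, and every `A`-invariant subgroup containing a `P8`-subgroup is `Y`. -/
structure Ctx (Y : Type u) [Group Y] (A : Subgroup (MulAut Y)) : Prop where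
  g : Gen Y A
  na : ∃ a b : Y, a * b ≠ b * a
  min : ∀ N : Subgroup Y, (∀ φ ∈ A, ∀ n ∈ N, φ n ∈ N) → (∃ B : Subgroup Y, B ≤ N ∧ IsP8 B) → N = ⊤

/-- S-level context: `H` of odd order normalizes the 2-subgroup `X`, which contains a
`P8`-subgroup, and no proper `H`-invariant subgroup of `X` contains one. -/
structure SCtx (S : Type u) [Group S] (H X : Subgroup S) : Prop where
  odd : Odd (Nat.card H)
  two : IsPGroup 2 X
  nrm : H ≤ Subgroup.normalizer (X : Set S)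
  min : ∀ N : Subgroup S, N ≤ X → H ≤ Subgroup.normalizer (N : Set S) →
    (∃ B : Subgroup S, B ≤ N ∧ IsP8 B) → N = X
  has : ∃ B : Subgroup S, B ≤ X ∧ IsP8 B

/-! ## Type-level packages -/

/-- (AB) an abelian 2-group without `P8`-subgroup is cyclic or a four-group. -/
def LemAb : Prop :=
  ∀ {G : Type u} [Group G] [Finite G], IsPGroup 2 G → (∀ a b : G, a * b = b * a) →
    (¬ ∃ B : Subgroup G, IsP8 B) → IsCyclic G ∨ (Nat.card G = 4 ∧ ∀ g : G, g * g = 1)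

/-- (CYC) an automorphism of odd order leaving a cyclic 2-subgroup invariant fixes it
elementwise. -/
def LemCyc : Prop :=
  ∀ {G : Type u} [Group G] [Finite G] (B : Subgroup G), IsPGroup 2 B → IsCyclic B →
    ∀ φ : MulAut G, Odd (orderOf φ) → (∀ b ∈ B, φ b ∈ B) → ∀ b ∈ B, φ b = b

/-- (C1) every `A`-invariant normal abelian subgroup is central. -/
def LemC1 : Prop :=
  LemAb.{u} → LemCyc.{u} →
  ∀ {Y : Type u} [Group Y] [Finite Y] (A : Subgroup (MulAut Y)), Ctx Y A →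
    ∀ B : Subgroup Y, B.Normal → (∀ φ ∈ A, ∀ b ∈ B, φ b ∈ B) →
      (∀ a ∈ B, ∀ b ∈ B, a * b = b * a) → B ≤ Subgroup.center Y

/-- (C2) if every `A`-invariant normal abelian subgroup is central then squares are central and
commutators lie in `omZ Y`. -/
def LemC2 : Prop :=
  ∀ {Y : Type u} [Group Y] [Finite Y] (A : Subgroup (MulAut Y)), IsPGroup 2 Y →
    (∀ B : Subgroup Y, B.Normal → (∀ φ ∈ A, ∀ b ∈ B, φ b ∈ B) →
      (∀ a ∈ B, ∀ b ∈ B, a * b = b * a) → B ≤ Subgroup.center Y) →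
    (∀ x : Y, x * x ∈ Subgroup.center Y) ∧ (∀ x y : Y, x * y * x⁻¹ * y⁻¹ ∈ omZ Y)

/-- (C3) the centre is `omZ Y`, of order 2 or 4, inside the derived group. -/
def LemC3 : Prop :=
  LemAb.{u} → LemCyc.{u} →
  ∀ {Y : Type u} [Group Y] [Finite Y] (A : Subgroup (MulAut Y)), Ctx Y A →
    (∀ x : Y, x * x ∈ Subgroup.center Y) → (∀ x y : Y, x * y * x⁻¹ * y⁻¹ ∈ omZ Y) →
    (∀ z : Y, z ∈ Subgroup.center Y → z ∈ omZ Y) ∧
      (Nat.card (omZ Y) = 2 ∨ Nat.card (omZ Y) = 4) ∧ (∀ v ∈ omZ Y, v ∈ commutator Y)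

/-- (ES) an "extraspecial" 2-group does not have order 16. -/
def LemEs : Prop :=
  ∀ {Y : Type u} [Group Y] [Finite Y], IsPGroup 2 Y →
    (∀ z : Y, z ∈ Subgroup.center Y → z ∈ omZ Y) → (∀ x : Y, x * x ∈ omZ Y) →
    (∀ x y : Y, x * y * x⁻¹ * y⁻¹ ∈ omZ Y) → Nat.card (omZ Y) = 2 → Nat.card Y ≠ 16

/-- (QtA) abelian case of (Qt). -/
def LemQtA : Prop :=
  LemAb.{u} → LemCyc.{u} →
  ∀ {Y : Type u} [Group Y] [Finite Y] (A : Subgroup (MulAut Y)), Gen Y A →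
    (∀ a b : Y, a * b = b * a) → (¬ ∃ B : Subgroup Y, IsP8 B) →
    Nat.card Y = 1 ∨ (Nat.card Y = 4 ∧ ∀ y : Y, y * y = 1)

/-- (Qt4) centre a four-group: `omZ Y ⊔ ⟨x⟩` is a `P8`-subgroup. -/
def LemQt4 : Prop :=
  ∀ {Y : Type u} [Group Y] [Finite Y], (∃ a b : Y, a * b ≠ b * a) →
    (∀ z : Y, z ∈ Subgroup.center Y → z ∈ omZ Y) → (∀ x : Y, x * x ∈ omZ Y) →
    Nat.card (omZ Y) = 4 → ∃ B : Subgroup Y, IsP8 B

/-- (Qt2) centre of order 2, order at least 16: there is a `P8`-subgroup. -/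
def LemQt2 : Prop :=
  ∀ {Y : Type u} [Group Y] [Finite Y], IsPGroup 2 Y → (∃ a b : Y, a * b ≠ b * a) →
    (∀ z : Y, z ∈ Subgroup.center Y → z ∈ omZ Y) → (∀ x : Y, x * x ∈ omZ Y) →
    (∀ x y : Y, x * y * x⁻¹ * y⁻¹ ∈ omZ Y) → Nat.card (omZ Y) = 2 → 16 ≤ Nat.card Y →
    ∃ B : Subgroup Y, IsP8 B

/-- (Qt8) order less than 16 (hence 8): quaternion. -/
def LemQt8 : Prop :=
  ∀ {Y : Type u} [Group Y] [Finite Y] (A : Subgroup (MulAut Y)), Gen Y A →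
    (∃ a b : Y, a * b ≠ b * a) →
    (∀ z : Y, z ∈ Subgroup.center Y → z ∈ omZ Y) → (∀ x : Y, x * x ∈ omZ Y) →
    (∀ x y : Y, x * y * x⁻¹ * y⁻¹ ∈ omZ Y) → (∀ v ∈ omZ Y, v ∈ commutator Y) →
    Nat.card (omZ Y) = 2 → Nat.card Y < 16 → Nonempty (Y ≃* QuaternionGroup 2)

/-- (Qt) a 2-group `Y = [Y, A]` without `P8`-subgroup is trivial, a four-group or quaternion. -/
def LemQt : Prop :=
  ∀ {Y : Type u} [Group Y] [Finite Y] (A : Subgroup (MulAut Y)), Gen Y A →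
    (¬ ∃ B : Subgroup Y, IsP8 B) →
    Nat.card Y = 1 ∨ (Nat.card Y = 4 ∧ ∀ y : Y, y * y = 1) ∨ Nonempty (Y ≃* QuaternionGroup 2)

/-- (CORE) the structure of `Y` in `Ctx`. -/
def LemCore : Prop :=
  ∀ {Y : Type u} [Group Y] [Finite Y] (A : Subgroup (MulAut Y)), Ctx Y A →
    (∃ B : Subgroup Y, IsP8 B) →
    (Cfsg.IsExtraspecial 2 Y ∧ 32 ≤ Nat.card Y) ∨
      (Cfsg.IsSpecial 2 Y ∧ Nat.card (Subgroup.center Y) = 4)

/-- (Q8A) an automorphism of the quaternion group sending every element to itself or its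
inverse is inner. -/
def LemQ8aut : Prop :=
  ∀ {Q : Type u} [Group Q], Nonempty (Q ≃* QuaternionGroup 2) → ∀ ψ : MulAut Q,
    (∀ q : Q, ψ q = q ∨ ψ q = q⁻¹) → ∃ t : Q, ∀ q : Q, ψ q = t * q * t⁻¹

/-! ## S-level packages -/

/-- (TR) the automorphism group induced on `N` by a subgroup `H` normalizing it. -/
def LemTr : Prop :=
  ∀ {G : Type u} [Group G] [Finite G] (H N : Subgroup G),
    H ≤ Subgroup.normalizer (N : Set G) →
    ∃ A : Subgroup (MulAut ↥N), Nat.card A ∣ Nat.card H ∧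
      (∀ φ ∈ A, ∃ h ∈ H, ∀ n : ↥N, ((φ n : ↥N) : G) = h * (n : G) * h⁻¹) ∧
      (∀ h ∈ H, ∃ φ ∈ A, ∀ n : ↥N, ((φ n : ↥N) : G) = h * (n : G) * h⁻¹)

/-- (GEN) `[N, H] = N` in type-level form. -/
def LemGen : Prop :=
  ∀ {G : Type u} [Group G] (H N : Subgroup G) (A : Subgroup (MulAut ↥N)),
    (∀ h ∈ H, ∃ φ ∈ A, ∀ n : ↥N, ((φ n : ↥N) : G) = h * (n : G) * h⁻¹) → ⁅N, H⁆ = N →
    Subgroup.closure {g : ↥N | ∃ φ ∈ A, ∃ x : ↥N, g = x⁻¹ * φ x} = ⊤

/-- (DA) `[N, H] ≠ 1` without `P8`-subgroup is a four-group or quaternion. -/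
def LemDecA : Prop :=
  LemTr.{u} → LemGen.{u} → LemQt.{u} →
  ∀ {G : Type u} [Group G] [Finite G] (H N : Subgroup G), Odd (Nat.card H) → IsPGroup 2 N →
    H ≤ Subgroup.normalizer (N : Set G) → ⁅N, H⁆ ≠ ⊥ →
    (¬ ∃ B : Subgroup G, B ≤ ⁅N, H⁆ ∧ IsP8 B) → EQ ⁅N, H⁆

/-- (DBE) `N = [N, H] C_N([N, H])` when `[N, H]` is a four-group. -/
def LemDecBE : Prop :=
  ∀ {G : Type u} [Group G] [Finite G] (H N : Subgroup G), Odd (Nat.card H) → IsPGroup 2 N →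
    H ≤ Subgroup.normalizer (N : Set G) →
    Nat.card ↥⁅N, H⁆ = 4 → (∀ n ∈ ⁅N, H⁆, n * n = 1) →
    N ≤ ⁅N, H⁆ ⊔ (N ⊓ Subgroup.centralizer ((⁅N, H⁆ : Subgroup G) : Set G))

/-- (DBQ) `N = [N, H] C_N([N, H])` when `[N, H]` is quaternion. -/
def LemDecBQ : Prop :=
  LemQ8aut.{u} →
  ∀ {G : Type u} [Group G] [Finite G] (H N : Subgroup G), Odd (Nat.card H) → IsPGroup 2 N →
    H ≤ Subgroup.normalizer (N : Set G) →
    Nonempty (↥⁅N, H⁆ ≃* QuaternionGroup 2) →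
    N ≤ ⁅N, H⁆ ⊔ (N ⊓ Subgroup.centralizer ((⁅N, H⁆ : Subgroup G) : Set G))

/-- (XE) a four-group extended by a centralizing element with square inside. -/
def LemExtE : Prop :=
  ∀ {G : Type u} [Group G] (N : Subgroup G) (d : G), Nat.card ↥N = 4 → (∀ n ∈ N, n * n = 1) →
    d ∈ Subgroup.centralizer (N : Set G) → d ∉ N → d * d ∈ N →
    (∃ B : Subgroup G, B ≤ N ⊔ Subgroup.zpowers d ∧ IsP8 B) ∧
      Nat.card ↥(N ⊔ Subgroup.zpowers d) = 2 * Nat.card ↥N ∧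
      ∀ a ∈ N ⊔ Subgroup.zpowers d, ∀ b ∈ N ⊔ Subgroup.zpowers d, a * b = b * a

/-- (XQ) a quaternion group extended by a centralizing element with square inside. -/
def LemExtQ : Prop :=
  ∀ {G : Type u} [Group G] (N : Subgroup G) (d : G), Nonempty (↥N ≃* QuaternionGroup 2) →
    d ∈ Subgroup.centralizer (N : Set G) → d ∉ N → d * d ∈ N →
    (∃ B : Subgroup G, B ≤ N ⊔ Subgroup.zpowers d ∧ IsP8 B) ∧
      Nat.card ↥(N ⊔ Subgroup.zpowers d) = 2 * Nat.card ↥N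

/-- (VE) `T` a self-centralizing normal four-group: no `P8`-subgroup. -/
def LemVsE : Prop :=
  ∀ {G : Type u} [Group G] [Finite G] (T : Subgroup G), T.Normal →
    Subgroup.centralizer (T : Set G) ≤ T → Nat.card ↥T = 4 → (∀ t ∈ T, t * t = 1) →
    ¬ ∃ B : Subgroup G, IsP8 B

/-- (VQ) `T` a self-centralizing normal quaternion group: no `P8`-subgroup. -/
def LemVsQ : Prop :=
  LemQ8aut.{u} →
  ∀ {G : Type u} [Group G] [Finite G] (T : Subgroup G), T.Normal →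
    Subgroup.centralizer (T : Set G) ≤ T → Nonempty (↥T ≃* QuaternionGroup 2) →
    ¬ ∃ B : Subgroup G, IsP8 B

/-- (M) the minimality of `S` in `H`-invariant form. -/
def LemM : Prop :=
  ∀ {S : Type u} [Group S] [Finite S] (H X : Subgroup S), IsPGroup 2 X →
    Nat.card H * Nat.card X = Nat.card S →
    (∀ R : Subgroup S, R ≠ ⊤ → (∃ k : ℕ, R.index = 2 ^ k) →
      ¬ ∃ A : Subgroup S, A ≤ R ∧ IsP8 A) →
    ∀ N : Subgroup S, N ≤ X → H ≤ Subgroup.normalizer (N : Set S) →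
      (∃ B : Subgroup S, B ≤ N ∧ IsP8 B) → N = X

/-- (HALL) a Hall `2'`-subgroup. -/
def LemHall : Prop :=
  ∀ {S : Type u} [Group S] [Finite S] [Group.IsSolvable S] (X : Sylow 2 S),
    ∃ H : Subgroup S, Odd (Nat.card H) ∧ Nat.card H * Nat.card (X : Subgroup S) = Nat.card S

/-- (KI) the case `X = [X, H]` nonabelian. -/
def LemKI : Prop :=
  LemTr.{u} → LemGen.{u} → LemCore.{u} →
  ∀ {S : Type u} [Group S] [Finite S] (H X : Subgroup S), SCtx S H X → ⁅X, H⁆ = X →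
    ¬ IsMulCommutative ↥X →
    (Cfsg.IsExtraspecial 2 ↥X ∧ 32 ≤ Nat.card ↥X) ∨
      (Cfsg.IsSpecial 2 ↥X ∧ Nat.card ↥(Subgroup.center ↥X) = 4)

end Cfsg.Agent.Lib.Helper32.P8
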