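import Mathlib
import Cfsg.Agent.Lib.Helper32.P8.Defs

/-!
# S4409: small shared tools (helper32)
-/

set_option autoImplicit false

universe u

namespace Cfsg.Agent.Lib.Helper32.P8

open Cfsg.Agent.Lib.Helper32.Scn

variable {Y : Type u} [Group Y] {A : Subgroup (MulAut Y)}

/-- a subgroup containing all `x⁻¹ * ψ x` is everything. -/
theorem Gen.top_of_mem (h : Gen Y A) (N : Subgroup Y)
    (hN : ∀ ψ ∈ A, ∀ x : Y, x⁻¹ * ψ x ∈ N) : ∀ x : Y, x ∈ N := by
  have : (⊤ : Subgroup Y) ≤ N := by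
    rw [← h.gen, Subgroup.closure_le]
    rintro g ⟨ψ, hψ, x, rfl⟩
    exact hN ψ hψ x
  exact fun x => this (Subgroup.mem_top x)

/-- every element of `A` has odd order. -/
theorem Gen.odd_order [Finite Y] (h : Gen Y A) : ∀ ψ ∈ A, Odd (orderOf ψ) := by
  intro ψ hψ
  have hd := orderOf_dvd_natCard (⟨ψ, hψ⟩ : A)
  rw [Subgroup.orderOf_mk] at hd
  exact Odd.of_dvd_nat h.odd hd

/-- an `A`-fixed element `z` has `z ^ |A|` in the derived subgroup. -/
theorem Gen.fix [Finite Y] (h : Gen Y A) (z : Y) (hz : ∀ ψ ∈ A, ψ z = z) :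
    z ^ Nat.card A ∈ commutator Y := by
  classical
  have : Fintype A := Fintype.ofFinite A
  let f : Y →* Abelianization Y :=
    ∏ ψ : A, (Abelianization.of.comp ((ψ : MulAut Y).toMonoidHom))
  have hf : ∀ x : Y, f x = ∏ ψ : A, Abelianization.of ((ψ : MulAut Y) x) := by
    intro x
    simp [f]
  have hinv : ∀ ψ' ∈ A, ∀ x : Y, f (ψ' x) = f x := by
    intro ψ' hψ' x
    rw [hf, hf]
    exact Fintype.prod_equiv (Equiv.mulRight (⟨ψ', hψ'⟩ : A)) _ _ (fun ψ => rfl)
  have hker : ∀ x : Y, x ∈ f.ker := by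
    apply h.top_of_mem
    intro ψ hψ x
    rw [MonoidHom.mem_ker, map_mul, map_inv, hinv ψ hψ]
    simp
  have hz1 : f z = 1 := hker z
  rw [hf] at hz1
  have hc : ∀ ψ : A, Abelianization.of ((ψ : MulAut Y) z) = Abelianization.of z :=
    fun ψ => by rw [hz ψ ψ.2]
  simp only [hc, Finset.prod_const, Finset.card_univ] at hz1
  rw [← map_pow, ← Nat.card_eq_fintype_card] at hz1
  rw [← Abelianization.ker_of]
  exact hz1

/-- a normal subgroup fixed elementwise by `A` is central. -/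
theorem Gen.central_of_fixed (h : Gen Y A) (B : Subgroup Y) (hB : B.Normal)
    (hfix : ∀ φ ∈ A, ∀ b ∈ B, φ b = b) : B ≤ Subgroup.center Y := by
  intro b hb
  have hall : ∀ x : Y, x ∈ Subgroup.centralizer ({b} : Set Y) := by
    apply h.top_of_mem
    intro ψ hψ x
    rw [Subgroup.mem_centralizer_singleton_iff]
    have h1 : ψ (x * b * x⁻¹) = x * b * x⁻¹ := hfix ψ hψ _ (hB.conj_mem b hb x)
    rw [map_mul, map_mul, hfix ψ hψ b hb, map_inv] at h1
    have h2 : ψ x * b = x * b * x⁻¹ * ψ x := by rw [← h1]; group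
    calc x⁻¹ * ψ x * b = x⁻¹ * (ψ x * b) := by group
      _ = x⁻¹ * (x * b * x⁻¹ * ψ x) := by rw [h2]
      _ = b * (x⁻¹ * ψ x) := by group
  rw [Subgroup.mem_center_iff]
  intro g
  have := hall g
  rw [Subgroup.mem_centralizer_singleton_iff] at this
  exact this

/-- `IsP8` is invariant under isomorphism. -/
theorem isP8_of_mulEquiv {G G' : Type u} [Group G] [Group G'] {B : Subgroup G}
    {B' : Subgroup G'} (e : ↥B ≃* ↥B') (h : IsP8 B) : IsP8 B' := by
  obtain ⟨h1, h2, h3⟩ := h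
  refine ⟨⟨⟨fun a b => ?_⟩⟩, fun hc => h2 ?_, ?_⟩
  · have := h1.is_comm.comm (e.symm a) (e.symm b)
    have h4 := congrArg e this
    simpa using h4
  · exact isCyclic_of_surjective e.symm e.symm.surjective
  · rw [← h3]; exact Nat.card_congr e.symm.toEquiv

theorem isP8_map_subtype {G : Type u} [Group G] (N : Subgroup G) (B' : Subgroup ↥N) :
    IsP8 (B'.map N.subtype) ↔ IsP8 B' :=
  ⟨isP8_of_mulEquiv (B'.equivMapOfInjective N.subtype N.subtype_injective).symm,
    isP8_of_mulEquiv (B'.equivMapOfInjective N.subtype N.subtype_injective)⟩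

theorem isP8_subgroupOf {G : Type u} [Group G] {N B : Subgroup G} (hBN : B ≤ N) :
    IsP8 (B.subgroupOf N) ↔ IsP8 B :=
  ⟨isP8_of_mulEquiv (Subgroup.subgroupOfEquivOfLe hBN),
    isP8_of_mulEquiv (Subgroup.subgroupOfEquivOfLe hBN).symm⟩

/-- a `P8`-subgroup which is everything makes the group commutative. -/
theorem comm_of_isP8_top {G : Type u} [Group G] {B : Subgroup G} (h : IsP8 B) (hB : B = ⊤)
    (a b : G) : a * b = b * a := by
  have ha : a ∈ B := by rw [hB]; exact Subgroup.mem_top a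
  have hb : b ∈ B := by rw [hB]; exact Subgroup.mem_top b
  have := h.1.is_comm.comm (⟨a, ha⟩ : ↥B) ⟨b, hb⟩
  exact congrArg Subtype.val this

/-- (POW) a 2-element outside `N` has a power outside `N` with square inside. -/
theorem exists_pow_not_mem {G : Type u} [Group G] (N : Subgroup G) (d : G) (k : ℕ)
    (hk : d ^ (2 ^ k) = 1) (hd : d ∉ N) :
    ∃ j : ℕ, d ^ (2 ^ j) ∉ N ∧ d ^ (2 ^ j) * d ^ (2 ^ j) ∈ N := by
  classical
  have hex : ∃ m : ℕ, d ^ (2 ^ m) ∈ N := ⟨k, by rw [hk]; exact N.one_mem⟩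
  have hpos : Nat.find hex ≠ 0 := by
    intro h0
    have := Nat.find_spec hex
    rw [h0] at this
    simp at this
    exact hd this
  obtain ⟨j, hj⟩ := Nat.exists_eq_succ_of_ne_zero hpos
  refine ⟨j, ?_, ?_⟩
  · exact Nat.find_min hex (by omega)
  · have := Nat.find_spec hex
    rw [hj, pow_succ, pow_mul, pow_two] at this
    exact this

/-! ### normalizer / commutator tools -/

section Nrm

open scoped commutatorElement

variable {G : Type u} [Group G]

theorem conj_mem_of_le_normalizer {H N : Subgroup G}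
    (hHN : H ≤ Subgroup.normalizer (N : Set G)) {h n : G} (hh : h ∈ H) (hn : n ∈ N) :
    h * n * h⁻¹ ∈ N :=
  (Subgroup.mem_normalizer_iff.mp (hHN hh) n).mp hn

theorem le_normalizer_of_conj_mem {H N : Subgroup G}
    (hc : ∀ h ∈ H, ∀ n ∈ N, h * n * h⁻¹ ∈ N) : H ≤ Subgroup.normalizer (N : Set G) := by
  intro h hh
  rw [Subgroup.mem_normalizer_iff]
  intro n
  refine ⟨hc h hh n, fun hn => ?_⟩
  have := hc h⁻¹ (H.inv_mem hh) _ hn
  simpa [mul_assoc] using this

/-- `[X, H] ≤ X` when `H` normalizes `X`. -/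
theorem commutator_le_of_le_normalizer {H X : Subgroup G}
    (hHX : H ≤ Subgroup.normalizer (X : Set G)) : ⁅X, H⁆ ≤ X := by
  rw [Subgroup.commutator_le]
  intro x hx h hh
  rw [commutatorElement_def]
  have := conj_mem_of_le_normalizer hHX hh (X.inv_mem hx)
  have e : x * h * x⁻¹ * h⁻¹ = x * (h * x⁻¹ * h⁻¹) := by group
  rw [e]; exact X.mul_mem hx this

/-- `H` normalizes `[X, H]` when `H` normalizes `X`. -/
theorem le_normalizer_commutator {H X : Subgroup G}
    (hHX : H ≤ Subgroup.normalizer (X : Set G)) :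
    H ≤ Subgroup.normalizer ((⁅X, H⁆ : Subgroup G) : Set G) := by
  apply le_normalizer_of_conj_mem
  intro h hh n hn
  have hmap : (⁅X, H⁆ : Subgroup G).map (MulAut.conj h).toMonoidHom ≤ ⁅X, H⁆ := by
    rw [Subgroup.map_commutator]
    apply Subgroup.commutator_mono
    · rintro _ ⟨x, hx, rfl⟩
      exact conj_mem_of_le_normalizer hHX hh hx
    · rintro _ ⟨k, hk, rfl⟩
      exact H.mul_mem (H.mul_mem hh hk) (H.inv_mem hh)
  exact hmap ⟨n, hn, rfl⟩

/-- `X` normalizes `[X, H]`. -/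
theorem le_normalizer_commutator_left (H X : Subgroup G) :
    X ≤ Subgroup.normalizer ((⁅X, H⁆ : Subgroup G) : Set G) := by
  apply le_normalizer_of_conj_mem
  intro y hy n hn
  have hmap : (⁅X, H⁆ : Subgroup G).map (MulAut.conj y).toMonoidHom ≤ ⁅X, H⁆ := by
    rw [Subgroup.commutator_def, MonoidHom.map_closure, Subgroup.closure_le]
    rintro _ ⟨_, ⟨x, hx, h, hh, rfl⟩, rfl⟩
    have e : (MulAut.conj y).toMonoidHom ⁅x, h⁆ = ⁅y * x, h⁆ * ⁅y, h⁆⁻¹ := by
      simp only [commutatorElement_def, MulEquiv.coe_toMonoidHom, MulAut.conj_apply]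
      group
    rw [e]
    exact Subgroup.mul_mem _ (Subgroup.commutator_mem_commutator (X.mul_mem hy hx) hh)
      (Subgroup.inv_mem _ (Subgroup.commutator_mem_commutator hy hh))
  exact hmap ⟨n, hn, rfl⟩

end Nrm

end Cfsg.Agent.Lib.Helper32.P8
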