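import Mathlib
import Cfsg.Agent.Lib.Helper32.P8.Tools

/-!
# S4409 package (KI): the case `X = [X, H]` nonabelian, by transport to the type level (helper32)
-/

set_option autoImplicit false

universe u

namespace Cfsg.Agent.Lib.Helper32.P8

open Cfsg.Agent.Lib.Helper32.Scn

theorem lemKI : LemKI.{u} := by
  intro hTr hGen hCore S _ _ H X h hXX hab
  obtain ⟨A, hAcard, _, hA2⟩ := hTr H X h.nrm
  have hodd : Odd (Nat.card A) := Odd.of_dvd_nat h.odd hAcard
  have hgen := hGen H X A hA2 hXX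
  have g : Gen ↥X A := ⟨h.two, hodd, hgen⟩
  have hna : ∃ a b : ↥X, a * b ≠ b * a := by
    by_contra hc
    push Not at hc
    exact hab ⟨⟨hc⟩⟩
  have hmin : ∀ N' : Subgroup ↥X, (∀ φ ∈ A, ∀ n ∈ N', φ n ∈ N') →
      (∃ B : Subgroup ↥X, B ≤ N' ∧ IsP8 B) → N' = ⊤ := by
    rintro N' hN' ⟨B', hB'N, hB'⟩
    have hNX : N'.map X.subtype ≤ X := by
      rintro _ ⟨n, _, rfl⟩
      exact n.2
    have hHN : H ≤ Subgroup.normalizer ((N'.map X.subtype : Subgroup S) : Set S) := by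
      apply le_normalizer_of_conj_mem
      rintro k hk _ ⟨n, hn, rfl⟩
      obtain ⟨φ, hφ, hφe⟩ := hA2 k hk
      exact ⟨φ n, hN' φ hφ n hn, hφe n⟩
    have hP : ∃ B : Subgroup S, B ≤ N'.map X.subtype ∧ IsP8 B :=
      ⟨B'.map X.subtype, Subgroup.map_mono hB'N, (isP8_map_subtype X B').mpr hB'⟩
    have hNeq := h.min _ hNX hHN hP
    rw [eq_top_iff]
    intro x _
    have hx : (x : S) ∈ N'.map X.subtype := by rw [hNeq]; exact x.2
    obtain ⟨n, hn, hnx⟩ := hx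
    have hnx' : n = x := Subtype.ext hnx
    rw [← hnx']
    exact hn
  have ctx : Ctx ↥X A := ⟨g, hna, hmin⟩
  obtain ⟨B, hBX, hB⟩ := h.has
  exact hCore A ctx ⟨B.subgroupOf X, (isP8_subgroupOf hBX).mpr hB⟩

end Cfsg.Agent.Lib.Helper32.P8
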