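import Mathlib
import Cfsg.Agent.Lib.Helper32.P8.Tools
import Cfsg.Agent.Lib.Helper32.Scn.LemAlt2
import Cfsg.Agent.Lib.Helper55.Cores

/-!
# S4409: assembly from the packages (helper32)
-/

set_option autoImplicit false

universe u

namespace Cfsg.Agent.Lib.Helper32.P8

open Cfsg.Agent.Lib.Helper32.Scn

/-- (CORE) from (AB), (CYC), (C1), (C2), (C3), (ES). -/
theorem lemCore_of (hAb : LemAb.{u}) (hCyc : LemCyc.{u}) (hC1 : LemC1.{u}) (hC2 : LemC2.{u})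
    (hC3 : LemC3.{u}) (hEs : LemEs.{u}) : LemCore.{u} := by
  intro Y _ _ A ctx hP8
  have : Fact (Nat.Prime 2) := ⟨Nat.prime_two⟩
  have h1 := hC1 hAb hCyc A ctx
  obtain ⟨hsqc, hcomm⟩ := hC2 A ctx.g.two h1
  obtain ⟨hcen, hcard, hder⟩ := hC3 hAb hCyc A ctx hsqc hcomm
  have hsq : ∀ x : Y, x * x ∈ omZ Y := fun x => hcen _ (hsqc x)
  have hcenter := center_eq_omZ hcen
  have hspec : Cfsg.IsSpecial 2 Y :=
    ⟨ctx.g.two, by rw [frattini_eq_omZ ctx.g.two hsq hcomm hder, hcenter],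
      by rw [commutator_eq_omZ hcomm hder, hcenter]⟩
  rcases hcard with h2 | h4
  · left
    refine ⟨⟨hspec, by rw [hcenter]; exact h2⟩, ?_⟩
    obtain ⟨B, hB⟩ := hP8
    obtain ⟨n, hn⟩ := (IsPGroup.iff_card).mp ctx.g.two
    have h8 : 8 ∣ Nat.card Y := by rw [← hB.2.2]; exact Subgroup.card_subgroup_dvd_card B
    have hne8 : Nat.card Y ≠ 8 := by
      intro h
      have hBt : B = ⊤ := Subgroup.eq_top_of_card_eq B (by rw [hB.2.2, h])
      obtain ⟨a, b, hab⟩ := ctx.na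
      exact hab (comm_of_isP8_top hB hBt a b)
    have hne16 := hEs ctx.g.two hcen hsq hcomm h2
    rw [hn] at h8 hne8 hne16 ⊢
    have h3 : 3 ≤ n := by
      by_contra hc
      push Not at hc
      interval_cases n <;> omega
    have h3' : n ≠ 3 := by rintro rfl; exact hne8 rfl
    have h4' : n ≠ 4 := by rintro rfl; exact hne16 rfl
    calc 32 = 2 ^ 5 := rfl
      _ ≤ 2 ^ n := Nat.pow_le_pow_right (by norm_num) (by omega)
  · right
    exact ⟨hspec, by rw [hcenter]; exact h4⟩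

/-- (Qt) from the packages. -/
theorem lemQt_of (hAb : LemAb.{u}) (hCyc : LemCyc.{u}) (hC1 : LemC1.{u}) (hC2 : LemC2.{u})
    (hC3 : LemC3.{u}) (hQtA : LemQtA.{u}) (hQt4 : LemQt4.{u}) (hQt2 : LemQt2.{u})
    (hQt8 : LemQt8.{u}) : LemQt.{u} := by
  intro Y _ _ A g hno
  by_cases hab : ∀ a b : Y, a * b = b * a
  · rcases hQtA hAb hCyc A g hab hno with h | h
    · exact Or.inl h
    · exact Or.inr (Or.inl h)
  · push Not at hab
    have hna : ∃ a b : Y, a * b ≠ b * a := hab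
    have ctx : Ctx Y A := ⟨g, hna, fun N _ ⟨B, _, hB⟩ => absurd ⟨B, hB⟩ hno⟩
    have h1 := hC1 hAb hCyc A ctx
    obtain ⟨hsqc, hcomm⟩ := hC2 A g.two h1
    obtain ⟨hcen, hcard, hder⟩ := hC3 hAb hCyc A ctx hsqc hcomm
    have hsq : ∀ x : Y, x * x ∈ omZ Y := fun x => hcen _ (hsqc x)
    rcases hcard with h2 | h4
    · by_cases h16 : 16 ≤ Nat.card Y
      · exact absurd (hQt2 g.two hna hcen hsq hcomm h2 h16) hno
      · exact Or.inr (Or.inr (hQt8 A g hna hcen hsq hcomm hder h2 (by omega)))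
    · exact absurd (hQt4 hna hcen hsq h4) hno

section SLevel

variable {S : Type u} [Group S]

/-- (K0) `[X, H] = 1`: `X` is abelian. -/
theorem k0 (H X : Subgroup S) (h : SCtx S H X) (hbot : ⁅X, H⁆ = ⊥) : IsMulCommutative ↥X := by
  obtain ⟨B, hBX, hB⟩ := h.has
  have hcen : X ≤ Subgroup.centralizer (H : Set S) :=
    Subgroup.commutator_eq_bot_iff_le_centralizer.mp hbot
  have hHB : H ≤ Subgroup.normalizer (B : Set S) := by
    apply le_normalizer_of_conj_mem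
    intro k hk n hn
    have := Subgroup.mem_centralizer_iff.mp (hcen (hBX hn)) k hk
    have e : k * n * k⁻¹ = n := by rw [this]; group
    rw [e]; exact hn
  have hBeq : B = X := h.min B hBX hHB ⟨B, le_rfl, hB⟩
  rw [← hBeq]
  exact hB.1

/-- (KII) `[X, H]` a four-group or quaternion without `P8`-subgroup. -/
theorem k2 (hXE : LemExtE.{u}) (hXQ : LemExtQ.{u}) (H X : Subgroup S) (h : SCtx S H X)
    (hno : ¬ ∃ B : Subgroup S, B ≤ ⁅X, H⁆ ∧ IsP8 B) (hEQ : EQ ⁅X, H⁆)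
    (hdec : X ≤ ⁅X, H⁆ ⊔ (X ⊓ Subgroup.centralizer ((⁅X, H⁆ : Subgroup S) : Set S))) :
    IsMulCommutative ↥X ∨
      ∃ (X₀ : Subgroup S) (k : ℕ), X₀ ≤ X ∧ X₀.relIndex X = 2 ∧
        Nonempty (↥X₀ ≃* QuaternionGroup (2 ^ (k + 1))) ∧
        X₀ ⊔ (X ⊓ Subgroup.centralizer (X₀ : Set S)) = X := by
  have hX₁X : ⁅X, H⁆ ≤ X := commutator_le_of_le_normalizer h.nrm
  have hHX₁ := le_normalizer_commutator h.nrm
  have hD : ¬ X ⊓ Subgroup.centralizer ((⁅X, H⁆ : Subgroup S) : Set S) ≤ ⁅X, H⁆ := by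
    intro hD
    have hXX : X ≤ ⁅X, H⁆ := hdec.trans (sup_le le_rfl hD)
    obtain ⟨B, hBX, hB⟩ := h.has
    exact hno ⟨B, hBX.trans hXX, hB⟩
  obtain ⟨d, hd, hdn⟩ := SetLike.not_le_iff_exists.mp hD
  obtain ⟨k, hk⟩ : ∃ k : ℕ, d ^ (2 ^ k) = 1 := by
    obtain ⟨k, hk⟩ := h.two ⟨d, hd.1⟩
    exact ⟨k, by simpa using congrArg Subtype.val hk⟩
  obtain ⟨j, hj1, hj2⟩ := exists_pow_not_mem _ d k hk hdn
  obtain ⟨e, he⟩ : ∃ e : S, e = d ^ (2 ^ j) := ⟨_, rfl⟩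
  rw [← he] at hj1 hj2
  have heX : e ∈ X := he ▸ X.pow_mem hd.1 _
  have heC : e ∈ Subgroup.centralizer ((⁅X, H⁆ : Subgroup S) : Set S) :=
    he ▸ Subgroup.pow_mem _ hd.2 _
  have hNX : ⁅X, H⁆ ⊔ Subgroup.zpowers e ≤ X :=
    sup_le hX₁X ((Subgroup.zpowers_le).mpr heX)
  have hHN : H ≤ Subgroup.normalizer ((⁅X, H⁆ ⊔ Subgroup.zpowers e : Subgroup S) : Set S) := by
    apply le_normalizer_of_conj_mem
    intro k hk n hn
    have hmap : (⁅X, H⁆ ⊔ Subgroup.zpowers e : Subgroup S).map (MulAut.conj k).toMonoidHom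
        ≤ ⁅X, H⁆ ⊔ Subgroup.zpowers e := by
      rw [Subgroup.map_sup, MonoidHom.map_zpowers]
      apply sup_le
      · refine le_trans ?_ le_sup_left
        rintro _ ⟨x, hx, rfl⟩
        exact conj_mem_of_le_normalizer hHX₁ hk hx
      · rw [Subgroup.zpowers_le]
        have hc : e * k * e⁻¹ * k⁻¹ ∈ ⁅X, H⁆ := by
          have := Subgroup.commutator_mem_commutator heX hk
          rwa [commutatorElement_def] at this
        have e1 : (MulAut.conj k).toMonoidHom e = (e * k * e⁻¹ * k⁻¹)⁻¹ * e := by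
          simp only [MulEquiv.coe_toMonoidHom, MulAut.conj_apply]
          group
        rw [e1]
        exact Subgroup.mul_mem _ (Subgroup.mem_sup_left (Subgroup.inv_mem _ hc))
          (Subgroup.mem_sup_right (Subgroup.mem_zpowers e))
    exact hmap ⟨n, hn, rfl⟩
  rcases hEQ with ⟨h4, hexp⟩ | hq
  · obtain ⟨hB, _, hab⟩ := hXE _ e h4 hexp heC hj1 hj2
    have hNeq := h.min _ hNX hHN hB
    left
    rw [hNeq] at hab
    exact ⟨⟨fun a b => Subtype.ext (hab a a.2 b b.2)⟩⟩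
  · obtain ⟨hB, hcard⟩ := hXQ _ e hq heC hj1 hj2
    have hNeq := h.min _ hNX hHN hB
    right
    refine ⟨⁅X, H⁆, 0, hX₁X, ?_, ?_, le_antisymm (sup_le hX₁X inf_le_left) hdec⟩
    · rw [hNeq] at hcard
      have hmul := Subgroup.relIndex_mul_relIndex (⊥ : Subgroup S) ⁅X, H⁆ X bot_le hX₁X
      rw [Subgroup.relIndex_bot_left, Subgroup.relIndex_bot_left, hcard] at hmul
      have hpos : 0 < Nat.card ↥⁅X, H⁆ := by
        have := Nat.card_congr hq.some.toEquiv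
        rw [this]
        simp [QuaternionGroup.card]
      nlinarith
    · have e2 : (2 : ℕ) ^ (0 + 1) = 2 := by norm_num
      rw [e2]
      exact hq

/-- the four alternatives in `SCtx`. -/
theorem struct (hTr : LemTr.{u}) (hGen : LemGen.{u}) (hQt : LemQt.{u}) (hCore : LemCore.{u})
    (hQ8 : LemQ8aut.{u}) (hDecA : LemDecA.{u}) (hDecBE : LemDecBE.{u}) (hDecBQ : LemDecBQ.{u})
    (hXE : LemExtE.{u}) (hXQ : LemExtQ.{u}) (hKI : LemKI.{u})
    [Finite S] (H X : Subgroup S) (h : SCtx S H X) :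
    IsMulCommutative ↥X ∨
      (Cfsg.IsExtraspecial 2 ↥X ∧ 32 ≤ Nat.card ↥X) ∨
      (∃ (X₀ : Subgroup S) (k : ℕ), X₀ ≤ X ∧ X₀.relIndex X = 2 ∧
        Nonempty (↥X₀ ≃* QuaternionGroup (2 ^ (k + 1))) ∧
        X₀ ⊔ (X ⊓ Subgroup.centralizer (X₀ : Set S)) = X) ∨
      (Cfsg.IsSpecial 2 ↥X ∧ Nat.card ↥(Subgroup.center ↥X) = 4) := by
  have hX₁X : ⁅X, H⁆ ≤ X := commutator_le_of_le_normalizer h.nrm
  have hHX₁ := le_normalizer_commutator h.nrm
  by_cases hP : ∃ B : Subgroup S, B ≤ ⁅X, H⁆ ∧ IsP8 B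
  · have hXX : ⁅X, H⁆ = X := h.min _ hX₁X hHX₁ hP
    by_cases hab : IsMulCommutative ↥X
    · exact Or.inl hab
    · rcases hKI hTr hGen hCore H X h hXX hab with h1 | h1
      · exact Or.inr (Or.inl h1)
      · exact Or.inr (Or.inr (Or.inr h1))
  · by_cases hbot : ⁅X, H⁆ = ⊥
    · exact Or.inl (k0 H X h hbot)
    · have hEQ := hDecA hTr hGen hQt H X h.odd h.two h.nrm hbot hP
      have hdec : X ≤ ⁅X, H⁆ ⊔ (X ⊓ Subgroup.centralizer ((⁅X, H⁆ : Subgroup S) : Set S)) := by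
        rcases hEQ with ⟨h4, he⟩ | hq
        · exact hDecBE H X h.odd h.two h.nrm h4 he
        · exact hDecBQ hQ8 H X h.odd h.two h.nrm hq
      rcases k2 hXE hXQ H X h hP hEQ hdec with h1 | h1
      · exact Or.inl h1
      · exact Or.inr (Or.inr (Or.inl h1))

/-- `O_2(S)` contains a `P8`-subgroup. -/
theorem step2 (hTr : LemTr.{u}) (hGen : LemGen.{u}) (hQt : LemQt.{u})
    (hQ8 : LemQ8aut.{u}) (hDecA : LemDecA.{u}) (hDecBE : LemDecBE.{u}) (hDecBQ : LemDecBQ.{u})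
    (hXE : LemExtE.{u}) (hXQ : LemExtQ.{u}) (hVsE : LemVsE.{u}) (hVsQ : LemVsQ.{u})
    [Finite S] [Group.IsSolvable S] (hO : Cfsg.pPrimeCore 2 S = ⊥) (H : Subgroup S)
    (hodd : Odd (Nat.card H)) (X : Sylow 2 S)
    (hcard : Nat.card H * Nat.card (X : Subgroup S) = Nat.card S)
    (h8 : ∃ B : Subgroup S, IsP8 B) : ∃ B : Subgroup S, B ≤ Cfsg.pCore 2 S ∧ IsP8 B := by
  have : Fact (Nat.Prime 2) := ⟨Nat.prime_two⟩
  by_contra hno
  obtain ⟨T, hTdef⟩ : ∃ T : Subgroup S, T = Cfsg.pCore 2 S := ⟨_, rfl⟩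
  rw [← hTdef] at hno
  have hTn : T.Normal := hTdef ▸ Cfsg.pCore_normal 2 S
  have hT2 : IsPGroup 2 T := hTdef ▸ Cfsg.Agent.Lib.Helper55.pCore_isPGroup 2 S
  have hCT : Subgroup.centralizer (T : Set S) ≤ T := by
    rw [hTdef]
    apply Cfsg.Agent.Lib.Helper55.centralizer_pCore_le
    intro N hN hc
    have : N ≤ Cfsg.pPrimeCore 2 S := le_sSup ⟨hN, hc⟩
    rw [hO] at this
    exact le_bot_iff.mp this
  have hHT : H ≤ Subgroup.normalizer (T : Set S) := by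
    rw [Subgroup.normalizer_eq_top]; exact le_top
  have hcl : ⁅T, H⁆ ≤ T := commutator_le_of_le_normalizer hHT
  by_cases hbot : ⁅T, H⁆ = ⊥
  · have h1 : H ≤ Subgroup.centralizer (T : Set S) := by
      rw [Subgroup.commutator_comm] at hbot
      exact Subgroup.commutator_eq_bot_iff_le_centralizer.mp hbot
    have h2 : H ≤ T := h1.trans hCT
    have hH2 : IsPGroup 2 H := hT2.to_le h2
    have hH1 : Nat.card H = 1 := by
      obtain ⟨n, hn⟩ := (IsPGroup.iff_card).mp hH2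
      rw [hn] at hodd ⊢
      rcases Nat.eq_zero_or_pos n with rfl | hpos
      · rfl
      · exact absurd hodd (by
          rw [Nat.not_odd_iff_even]
          exact (Nat.even_pow' (by omega)).mpr even_two)
    rw [hH1, one_mul] at hcard
    have hXtop : (X : Subgroup S) = ⊤ := Subgroup.eq_top_of_card_eq _ hcard
    have hS2 : IsPGroup 2 S := by
      have h3 : IsPGroup 2 (⊤ : Subgroup S) := hXtop ▸ X.isPGroup'
      exact (IsPGroup.of_equiv h3 Subgroup.topEquiv)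
    have hTtop : (⊤ : Subgroup S) ≤ T := by
      rw [hTdef]
      exact Cfsg.Agent.Lib.Helper55.le_pCore inferInstance (hS2.to_subgroup _)
    obtain ⟨B, hB⟩ := h8
    exact hno ⟨B, le_top.trans hTtop, hB⟩
  · have hnoP : ¬ ∃ B : Subgroup S, B ≤ ⁅T, H⁆ ∧ IsP8 B :=
      fun ⟨B, hB, hB8⟩ => hno ⟨B, hB.trans hcl, hB8⟩
    have hEQ := hDecA hTr hGen hQt H T hodd hT2 hHT hbot hnoP
    have hdec : T ≤ ⁅T, H⁆ ⊔ (T ⊓ Subgroup.centralizer ((⁅T, H⁆ : Subgroup S) : Set S)) := by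
      rcases hEQ with ⟨h4, he⟩ | hq
      · exact hDecBE H T hodd hT2 hHT h4 he
      · exact hDecBQ hQ8 H T hodd hT2 hHT hq
    by_cases hD : T ⊓ Subgroup.centralizer ((⁅T, H⁆ : Subgroup S) : Set S) ≤ ⁅T, H⁆
    · have hTeq : ⁅T, H⁆ = T := le_antisymm hcl (hdec.trans (sup_le le_rfl hD))
      rw [hTeq] at hEQ
      rcases hEQ with ⟨h4, he⟩ | hq
      · exact hVsE T hTn hCT h4 he h8
      · exact hVsQ hQ8 T hTn hCT hq h8
    · obtain ⟨d, hd, hdn⟩ := SetLike.not_le_iff_exists.mp hD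
      obtain ⟨k, hk⟩ : ∃ k : ℕ, d ^ (2 ^ k) = 1 := by
        obtain ⟨k, hk⟩ := hT2 ⟨d, hd.1⟩
        exact ⟨k, by simpa using congrArg Subtype.val hk⟩
      obtain ⟨j, hj1, hj2⟩ := exists_pow_not_mem _ d k hk hdn
      have hdT : d ^ (2 ^ j) ∈ T := T.pow_mem hd.1 _
      have hdC : d ^ (2 ^ j) ∈ Subgroup.centralizer ((⁅T, H⁆ : Subgroup S) : Set S) :=
        Subgroup.pow_mem _ hd.2 _
      have hext : ∃ B : Subgroup S, B ≤ ⁅T, H⁆ ⊔ Subgroup.zpowers (d ^ (2 ^ j)) ∧ IsP8 B := by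
        rcases hEQ with ⟨h4, he⟩ | hq
        · exact (hXE _ _ h4 he hdC hj1 hj2).1
        · exact (hXQ _ _ hq hdC hj1 hj2).1
      obtain ⟨B, hB, hB8⟩ := hext
      exact hno ⟨B, hB.trans (sup_le hcl ((Subgroup.zpowers_le).mpr hdT)), hB8⟩

/-- S4409 from the packages. -/
theorem main (hTr : LemTr.{u}) (hGen : LemGen.{u}) (hQt : LemQt.{u}) (hCore : LemCore.{u})
    (hQ8 : LemQ8aut.{u}) (hDecA : LemDecA.{u}) (hDecBE : LemDecBE.{u}) (hDecBQ : LemDecBQ.{u})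
    (hXE : LemExtE.{u}) (hXQ : LemExtQ.{u}) (hVsE : LemVsE.{u}) (hVsQ : LemVsQ.{u})
    (hKI : LemKI.{u}) (hM : LemM.{u}) (hHall : LemHall.{u})
    [Finite S] [Group.IsSolvable S] (hO : Cfsg.pPrimeCore 2 S = ⊥)
    (h8 : ∃ A : Subgroup S, IsMulCommutative ↥A ∧ ¬ IsCyclic ↥A ∧ Nat.card ↥A = 8)
    (hmin : ∀ R : Subgroup S, R ≠ ⊤ → (∃ k : ℕ, R.index = 2 ^ k) →
      ¬ ∃ A : Subgroup S, A ≤ R ∧ IsMulCommutative ↥A ∧ ¬ IsCyclic ↥A ∧ Nat.card ↥A = 8)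
    (X : Sylow 2 S) :
    (X : Subgroup S).Normal ∧
      (IsMulCommutative ↥X ∨
        (Cfsg.IsExtraspecial 2 ↥X ∧ 32 ≤ Nat.card ↥X) ∨
        (∃ (X₀ : Subgroup S) (k : ℕ), X₀ ≤ (X : Subgroup S) ∧ X₀.relIndex (X : Subgroup S) = 2 ∧
          Nonempty (↥X₀ ≃* QuaternionGroup (2 ^ (k + 1))) ∧
          X₀ ⊔ ((X : Subgroup S) ⊓ Subgroup.centralizer (X₀ : Set S)) = (X : Subgroup S)) ∨
        (Cfsg.IsSpecial 2 ↥X ∧ Nat.card ↥(Subgroup.center ↥X) = 4)) := by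
  have : Fact (Nat.Prime 2) := ⟨Nat.prime_two⟩
  obtain ⟨H, hodd, hcard⟩ := hHall X
  have h8' : ∃ B : Subgroup S, IsP8 B := h8
  have hT := step2 hTr hGen hQt hQ8 hDecA hDecBE hDecBQ hXE hXQ hVsE hVsQ hO H hodd X hcard h8'
  have hminX := hM H (X : Subgroup S) X.isPGroup' hcard hmin
  have hTX : Cfsg.pCore 2 S = (X : Subgroup S) :=
    hminX _ (Cfsg.Agent.Lib.Helper55.pCore_le_sylow X)
      (by rw [Subgroup.normalizer_eq_top]; exact le_top) hT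
  have hXn : (X : Subgroup S).Normal := hTX ▸ Cfsg.pCore_normal 2 S
  refine ⟨hXn, ?_⟩
  have hctx : SCtx S H (X : Subgroup S) :=
    ⟨hodd, X.isPGroup', by rw [Subgroup.normalizer_eq_top]; exact le_top, hminX, hTX ▸ hT⟩
  exact struct hTr hGen hQt hCore hQ8 hDecA hDecBE hDecBQ hXE hXQ hKI H (X : Subgroup S) hctx

end SLevel

end Cfsg.Agent.Lib.Helper32.P8
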