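import Mathlib
import Cfsg.Agent.Lib.Helper32.P8.Tools
import Cfsg.Agent.Lib.Helper65.Scn.LemA1q8

/-!
# S4409 package (QT8): order less than 16 gives the quaternion group (helper32)
-/

set_option autoImplicit false

universe u

namespace Cfsg.Agent.Lib.Helper32.P8

open Cfsg.Agent.Lib.Helper32.Scn

theorem lemQt8 : LemQt8.{u} := by
  intro Y _ _ A g hna hcen hsq hcomm hder hV hlt
  have : Fact (Nat.Prime 2) := ⟨Nat.prime_two⟩
  obtain ⟨n, hn⟩ := (IsPGroup.iff_card).mp g.two
  have hn3 : 3 ≤ n := by
    by_contra hc
    push Not at hc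
    obtain ⟨a, b, hab⟩ := hna
    apply hab
    interval_cases n
    · have : Subsingleton Y := (Nat.card_eq_one_iff_unique.mp (by simpa using hn)).1
      exact Subsingleton.elim _ _
    · have hc : IsCyclic Y := isCyclic_of_prime_card (p := 2) (by simpa using hn)
      obtain ⟨c, hc⟩ := hc.exists_generator
      obtain ⟨i, rfl⟩ := Subgroup.mem_zpowers_iff.mp (hc a)
      obtain ⟨j, rfl⟩ := Subgroup.mem_zpowers_iff.mp (hc b)
      rw [← zpow_add, ← zpow_add, add_comm]
    · have hcg := IsPGroup.commutative_of_card_eq_prime_sq (p := 2) (G := Y) (by simpa using hn)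
      exact hcg a b
  have h8 : Nat.card Y = 8 := by
    rw [hn] at hlt ⊢
    have h4 : n < 4 := by
      by_contra hc
      push Not at hc
      have := Nat.pow_le_pow_right (show 0 < 2 by norm_num) hc
      omega
    interval_cases n
    rfl
  have hyp : Hyp Y A :=
    { two := g.two
      na := hna
      odd := g.odd
      gen := g.gen
      noE8 := by
        intro E hE hexp
        by_contra hc
        push Not at hc
        have hdvd := Subgroup.card_subgroup_dvd_card E
        rw [h8] at hdvd
        have hE8 : Nat.card E = 8 := by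
          have hle : Nat.card E ≤ 8 := Nat.le_of_dvd (by norm_num) hdvd
          interval_cases h : Nat.card E <;> omega
        have hEt : E = ⊤ := Subgroup.eq_top_of_card_eq E (by rw [hE8, h8])
        obtain ⟨a, b, hab⟩ := hna
        apply hab
        have h1 : ∀ x : Y, x * x = 1 := fun x => hexp x (by rw [hEt]; exact Subgroup.mem_top x)
        have ha : a⁻¹ = a := inv_eq_of_mul_eq_one_left (h1 a)
        have hb : b⁻¹ = b := inv_eq_of_mul_eq_one_left (h1 b)
        have hab' : (a * b)⁻¹ = a * b := inv_eq_of_mul_eq_one_left (h1 (a * b))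
        calc a * b = (a * b)⁻¹ := hab'.symm
          _ = b⁻¹ * a⁻¹ := mul_inv_rev a b
          _ = b * a := by rw [ha, hb] }
  have hfix : ∀ ψ ∈ A, ∀ v ∈ omZ Y, ψ v = v := by
    intro ψ _ v hv
    by_cases hv1 : v = 1
    · rw [hv1, map_one]
    · have hψv : ψ v ∈ omZ Y := omZ_aut ψ hv
      have hψ1 : ψ v ≠ 1 := by
        intro hc
        apply hv1
        have : ψ v = ψ 1 := by rw [hc, map_one]
        exact ψ.injective this
      -- two nonidentity elements of a group of order 2 coincide
      have hfin : Finite (omZ Y) := inferInstance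
      have hcard2 : Nat.card (omZ Y) = 2 := hV
      by_contra hne
      have h3 : 3 ≤ Nat.card (omZ Y) := by
        classical
        have := Fintype.ofFinite (omZ Y)
        rw [Nat.card_eq_fintype_card]
        have hsub : ({(1 : omZ Y), ⟨v, hv⟩, ⟨ψ v, hψv⟩} : Finset (omZ Y)) ⊆ Finset.univ :=
          Finset.subset_univ _
        have hc3 : ({(1 : omZ Y), ⟨v, hv⟩, ⟨ψ v, hψv⟩} : Finset (omZ Y)).card = 3 := by
          rw [Finset.card_insert_of_notMem, Finset.card_insert_of_notMem,
            Finset.card_singleton]
          · simp only [Finset.mem_singleton, Subtype.mk.injEq]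
            exact fun h => hne h.symm
          · simp only [Finset.mem_insert, Finset.mem_singleton]
            rintro (h | h)
            · exact hv1 (congrArg Subtype.val h).symm
            · exact hψ1 (congrArg Subtype.val h).symm
        calc 3 = _ := hc3.symm
          _ ≤ _ := Finset.card_le_card hsub
      omega
  have actx : ACtx Y A := ⟨hyp, hcen, hsq, hcomm, hfix, hder⟩
  exact Cfsg.Agent.Lib.Helper65.Scn.lemA1q8 A actx hV h8

end Cfsg.Agent.Lib.Helper32.P8
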